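import Mathlib

/-!
# Arithmetic for the elements of order `p` in the orthogonal groups (S2454, helper166)
-/

set_option autoImplicit false

namespace Cfsg.Agent.H166.Og

theorem lt_of_scaled {a b A B s t : ℕ} (ha : s * a ≤ A) (hb : B ≤ t * b) (_hs : 0 < s)
    (h : A ^ 5 * t ^ 6 < B ^ 6 * s ^ 5) : a ^ 5 < b ^ 6 := by
  by_contra hcon
  rw [not_lt] at hcon
  have h1 : (s * a) ^ 5 ≤ A ^ 5 := Nat.pow_le_pow_left ha 5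
  have h2 : B ^ 6 ≤ (t * b) ^ 6 := Nat.pow_le_pow_left hb 6
  have h3 : A ^ 5 * t ^ 6 < A ^ 5 * t ^ 6 := by
    calc A ^ 5 * t ^ 6 < B ^ 6 * s ^ 5 := h
      _ ≤ (t * b) ^ 6 * s ^ 5 := Nat.mul_le_mul_right _ h2
      _ = t ^ 6 * s ^ 5 * b ^ 6 := by ring
      _ ≤ t ^ 6 * s ^ 5 * a ^ 5 := Nat.mul_le_mul_left _ hcon
      _ = t ^ 6 * (s * a) ^ 5 := by ring
      _ ≤ t ^ 6 * A ^ 5 := Nat.mul_le_mul_left _ h1
      _ = A ^ 5 * t ^ 6 := by ring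
  exact lt_irrefl _ h3

theorem d_eq {q a b : ℕ} (hq : 1 ≤ q) (hb : b = a + 1) : (q - 1) * (q ^ b + q ^ a) = (q ^ 2 - 1) * q ^ a := by
  subst hb
  obtain ⟨k, rfl⟩ := Nat.exists_eq_add_of_le hq
  have h1 : (1 + k) ^ 2 - 1 = k * (k + 2) := by
    have : (1 + k) ^ 2 = k * (k + 2) + 1 := by ring
    omega
  rw [h1, Nat.add_sub_cancel_left]
  ring

/-- complement of dimension two -/
theorem num_two {q i : ℕ} (hq : 2 ≤ q) (hi : 3 ≤ i) (h : ¬ (q = 2 ∧ i = 3)) :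
    ((q ^ i + 1) * (4 * q) - 1) ^ 5 < ((q - 1) * (q ^ (2 * i - 2) + q ^ (2 * i - 3)) - 1) ^ 6 := by
  obtain ⟨j, rfl⟩ := Nat.exists_eq_add_of_le hi
  rw [d_eq (a := 2 * (3 + j) - 3) (by omega) (by omega)]
  set Y := q ^ j with hY
  have hY1 : 1 ≤ Y := Nat.one_le_pow _ _ (by omega)
  have hYq : q = 2 → 2 ≤ Y := by
    rintro rfl
    have : 1 ≤ j := by
      by_contra hj
      exact h ⟨rfl, by omega⟩
    calc 2 = 2 ^ 1 := by norm_num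
      _ ≤ Y := Nat.pow_le_pow_right (by norm_num) this
  have e1 : q ^ (3 + j) = q ^ 3 * Y := by rw [pow_add]
  have e2 : q ^ (2 * (3 + j) - 3) = q ^ 3 * Y ^ 2 := by
    have : 2 * (3 + j) - 3 = 3 + j * 2 := by omega
    rw [this, pow_add, pow_mul]
  rw [e1, e2]
  obtain ⟨k, rfl⟩ := Nat.exists_eq_add_of_le hq
  have hsq : (2 + k) ^ 2 - 1 = k ^ 2 + 4 * k + 3 := by
    have : (2 + k) ^ 2 = k ^ 2 + 4 * k + 3 + 1 := by ring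
    omega
  rw [hsq]
  have h16 : 16 ≤ (2 + k) ^ 3 * Y := by
    rcases Nat.eq_zero_or_pos k with rfl | hk
    · have := hYq rfl
      norm_num
      omega
    · have : 27 ≤ (2 + k) ^ 3 := by
        calc 27 = 3 ^ 3 := by norm_num
          _ ≤ (2 + k) ^ 3 := Nat.pow_le_pow_left (by omega) 3
      calc 16 ≤ 27 * 1 := by norm_num
        _ ≤ (2 + k) ^ 3 * Y := Nat.mul_le_mul this hY1
  refine lt_of_scaled (s := 4) (t := 64) (A := 17 * ((2 + k) ^ 4 * Y)) (B := 47 * ((2 + k) ^ 5 * Y ^ 2)) ?_ ?_ (by norm_num) ?_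
  · calc 4 * (((2 + k) ^ 3 * Y + 1) * (4 * (2 + k)) - 1) ≤ 4 * (((2 + k) ^ 3 * Y + 1) * (4 * (2 + k))) :=
          Nat.mul_le_mul_left _ (Nat.sub_le _ _)
      _ = (16 * ((2 + k) ^ 3 * Y) + 16) * (2 + k) := by ring
      _ ≤ (17 * ((2 + k) ^ 3 * Y)) * (2 + k) := Nat.mul_le_mul_right _ (by omega)
      _ = 17 * ((2 + k) ^ 4 * Y) := by ring
  · have hd1 : 1 ≤ (k ^ 2 + 4 * k + 3) * ((2 + k) ^ 3 * Y ^ 2) := by
      have : 0 < (2 + k) ^ 3 * Y ^ 2 := by positivity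
      nlinarith
    have key : 47 * ((2 + k) ^ 5 * Y ^ 2) + 64 ≤ 64 * ((k ^ 2 + 4 * k + 3) * ((2 + k) ^ 3 * Y ^ 2)) := by
      have h1 : 64 ≤ ((2 + k) ^ 3 * Y ^ 2) * (17 * (k ^ 2 + 4 * k) + 4) := by
        rcases Nat.eq_zero_or_pos k with rfl | hk
        · have h2 := hYq rfl
          have : 4 ≤ Y ^ 2 := by nlinarith
          norm_num
          omega
        · have h2 : 1 ≤ (2 + k) ^ 3 * Y ^ 2 := Nat.one_le_iff_ne_zero.2 (by positivity)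
          have h3 : 64 ≤ 17 * (k ^ 2 + 4 * k) + 4 := by nlinarith
          calc 64 = 1 * 64 := by norm_num
            _ ≤ _ := Nat.mul_le_mul h2 h3
      calc 47 * ((2 + k) ^ 5 * Y ^ 2) + 64 ≤ 47 * ((2 + k) ^ 5 * Y ^ 2)
            + ((2 + k) ^ 3 * Y ^ 2) * (17 * (k ^ 2 + 4 * k) + 4) := Nat.add_le_add_left h1 _
        _ = 64 * ((k ^ 2 + 4 * k + 3) * ((2 + k) ^ 3 * Y ^ 2)) := by ring
    omega
  · have h1 : 8840 ≤ (2 + k) ^ 10 * Y ^ 7 := by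
      rcases Nat.eq_zero_or_pos k with rfl | hk
      · have h2 := hYq rfl
        have : 2 ^ 7 ≤ Y ^ 7 := Nat.pow_le_pow_left h2 7
        norm_num at this ⊢
        omega
      · have h2 : 3 ^ 10 ≤ (2 + k) ^ 10 := Nat.pow_le_pow_left (by omega) 10
        have h3 : 1 ≤ Y ^ 7 := Nat.one_le_pow _ _ hY1
        calc 8840 ≤ 3 ^ 10 * 1 := by norm_num
          _ ≤ _ := Nat.mul_le_mul h2 h3
    have h0 : 0 < (2 + k) ^ 20 * Y ^ 5 := by positivity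
    calc (17 * ((2 + k) ^ 4 * Y)) ^ 5 * 64 ^ 6 = (17 ^ 5 * 64 ^ 6) * ((2 + k) ^ 20 * Y ^ 5) := by ring
      _ < (47 ^ 6 * 4 ^ 5 * 8840) * ((2 + k) ^ 20 * Y ^ 5) := Nat.mul_lt_mul_of_pos_right (by norm_num) h0
      _ ≤ (47 ^ 6 * 4 ^ 5 * ((2 + k) ^ 10 * Y ^ 7)) * ((2 + k) ^ 20 * Y ^ 5) :=
          Nat.mul_le_mul_right _ (Nat.mul_le_mul_left _ h1)
      _ = (47 * ((2 + k) ^ 5 * Y ^ 2)) ^ 6 * 4 ^ 5 := by ring

/-- complement of dimension one -/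
theorem num_one {q i : ℕ} (hq : 3 ≤ q) (hi : 3 ≤ i) :
    ((q ^ i + 1) * 2 - 1) ^ 5 < ((q - 1) * (q ^ (2 * i - 3) + q ^ (2 * i - 4)) - 1) ^ 6 := by
  obtain ⟨j, rfl⟩ := Nat.exists_eq_add_of_le hi
  rw [d_eq (a := 2 * (3 + j) - 4) (by omega) (by omega)]
  set Y := q ^ j with hY
  have hY1 : 1 ≤ Y := Nat.one_le_pow _ _ (by omega)
  have e1 : q ^ (3 + j) = q ^ 3 * Y := by rw [pow_add]
  have e2 : q ^ (2 * (3 + j) - 4) = q ^ 2 * Y ^ 2 := by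
    have : 2 * (3 + j) - 4 = 2 + j * 2 := by omega
    rw [this, pow_add, pow_mul]
  rw [e1, e2]
  obtain ⟨k, rfl⟩ := Nat.exists_eq_add_of_le hq
  have hsq : (3 + k) ^ 2 - 1 = k ^ 2 + 6 * k + 8 := by
    have : (3 + k) ^ 2 = k ^ 2 + 6 * k + 8 + 1 := by ring
    omega
  rw [hsq]
  have h16 : 16 ≤ (3 + k) ^ 3 * Y := by
    have : 27 ≤ (3 + k) ^ 3 := by
      calc 27 = 3 ^ 3 := by norm_num
        _ ≤ (3 + k) ^ 3 := Nat.pow_le_pow_left (by omega) 3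
    calc 16 ≤ 27 * 1 := by norm_num
      _ ≤ (3 + k) ^ 3 * Y := Nat.mul_le_mul this hY1
  refine lt_of_scaled (s := 8) (t := 64) (A := 17 * ((3 + k) ^ 3 * Y)) (B := 47 * ((3 + k) ^ 4 * Y ^ 2)) ?_ ?_ (by norm_num) ?_
  · calc 8 * (((3 + k) ^ 3 * Y + 1) * 2 - 1) ≤ 8 * (((3 + k) ^ 3 * Y + 1) * 2) :=
          Nat.mul_le_mul_left _ (Nat.sub_le _ _)
      _ = 16 * ((3 + k) ^ 3 * Y) + 16 := by ring
      _ ≤ 17 * ((3 + k) ^ 3 * Y) := by omega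
  · have key : 47 * ((3 + k) ^ 4 * Y ^ 2) + 64 ≤ 64 * ((k ^ 2 + 6 * k + 8) * ((3 + k) ^ 2 * Y ^ 2)) := by
      have h1 : 64 ≤ ((3 + k) ^ 2 * Y ^ 2) * (17 * (k ^ 2 + 6 * k) + 89) := by
        have h2 : 1 ≤ (3 + k) ^ 2 * Y ^ 2 := Nat.one_le_iff_ne_zero.2 (by positivity)
        have h3 : 64 ≤ 17 * (k ^ 2 + 6 * k) + 89 := by nlinarith
        calc 64 = 1 * 64 := by norm_num
          _ ≤ _ := Nat.mul_le_mul h2 h3
      calc 47 * ((3 + k) ^ 4 * Y ^ 2) + 64 ≤ 47 * ((3 + k) ^ 4 * Y ^ 2)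
            + ((3 + k) ^ 2 * Y ^ 2) * (17 * (k ^ 2 + 6 * k) + 89) := Nat.add_le_add_left h1 _
        _ = 64 * ((k ^ 2 + 6 * k + 8) * ((3 + k) ^ 2 * Y ^ 2)) := by ring
    omega
  · have h1 : 277 ≤ (3 + k) ^ 9 * Y ^ 7 := by
      have h2 : 3 ^ 9 ≤ (3 + k) ^ 9 := Nat.pow_le_pow_left (by omega) 9
      have h3 : 1 ≤ Y ^ 7 := Nat.one_le_pow _ _ hY1
      calc 277 ≤ 3 ^ 9 * 1 := by norm_num
        _ ≤ _ := Nat.mul_le_mul h2 h3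
    have h0 : 0 < (3 + k) ^ 15 * Y ^ 5 := by positivity
    calc (17 * ((3 + k) ^ 3 * Y)) ^ 5 * 64 ^ 6 = (17 ^ 5 * 64 ^ 6) * ((3 + k) ^ 15 * Y ^ 5) := by ring
      _ < (47 ^ 6 * 8 ^ 5 * 277) * ((3 + k) ^ 15 * Y ^ 5) := Nat.mul_lt_mul_of_pos_right (by norm_num) h0
      _ ≤ (47 ^ 6 * 8 ^ 5 * ((3 + k) ^ 9 * Y ^ 7)) * ((3 + k) ^ 15 * Y ^ 5) :=
          Nat.mul_le_mul_right _ (Nat.mul_le_mul_left _ h1)
      _ = (47 * ((3 + k) ^ 4 * Y ^ 2)) ^ 6 * 8 ^ 5 := by ring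

/-- complement of dimension zero -/
theorem num_zero {q m : ℕ} (hq : 2 ≤ q) (hm : 3 ≤ m) :
    (q ^ (m + 1) + 1 - 1) ^ 5 < ((q - 1) * (q ^ (2 * m - 2) + q ^ (2 * m - 3)) - 1) ^ 6 := by
  obtain ⟨j, rfl⟩ := Nat.exists_eq_add_of_le hm
  rw [d_eq (a := 2 * (3 + j) - 3) (by omega) (by omega), Nat.add_sub_cancel]
  set Y := q ^ j with hY
  have hY1 : 1 ≤ Y := Nat.one_le_pow _ _ (by omega)
  have e1 : q ^ (3 + j + 1) = q ^ 4 * Y := by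
    have : 3 + j + 1 = 4 + j := by omega
    rw [this, pow_add]
  have e2 : q ^ (2 * (3 + j) - 3) = q ^ 3 * Y ^ 2 := by
    have : 2 * (3 + j) - 3 = 3 + j * 2 := by omega
    rw [this, pow_add, pow_mul]
  rw [e1, e2]
  obtain ⟨k, rfl⟩ := Nat.exists_eq_add_of_le hq
  have hsq : (2 + k) ^ 2 - 1 = k ^ 2 + 4 * k + 3 := by
    have : (2 + k) ^ 2 = k ^ 2 + 4 * k + 3 + 1 := by ring
    omega
  rw [hsq]
  have h1 : (2 + k) ^ 4 * Y ^ 2 + 1 ≤ (k ^ 2 + 4 * k + 3) * ((2 + k) ^ 3 * Y ^ 2) := by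
    have h2 : 1 ≤ (2 + k) ^ 3 * Y ^ 2 := Nat.one_le_iff_ne_zero.2 (by positivity)
    calc (2 + k) ^ 4 * Y ^ 2 + 1 ≤ (2 + k) ^ 4 * Y ^ 2 + (2 + k) ^ 3 * Y ^ 2 := Nat.add_le_add_left h2 _
      _ = (k + 3) * ((2 + k) ^ 3 * Y ^ 2) := by ring
      _ ≤ _ := Nat.mul_le_mul_right _ (by nlinarith)
  have h2 : (2 + k) ^ 4 * Y ^ 2 ≤ (k ^ 2 + 4 * k + 3) * ((2 + k) ^ 3 * Y ^ 2) - 1 := by omega
  refine lt_of_lt_of_le ?_ (Nat.pow_le_pow_left h2 6)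
  have h0 : 0 < (2 + k) ^ 20 * Y ^ 5 := by positivity
  have h3 : 1 < (2 + k) ^ 4 * Y ^ 7 := by
    have h4 : 1 < (2 + k) ^ 4 := Nat.one_lt_pow (by norm_num) (by omega)
    have h5 : 1 ≤ Y ^ 7 := Nat.one_le_pow _ _ hY1
    calc 1 < (2 + k) ^ 4 * 1 := by omega
      _ ≤ _ := Nat.mul_le_mul_left _ h5
  calc ((2 + k) ^ 4 * Y) ^ 5 = 1 * ((2 + k) ^ 20 * Y ^ 5) := by ring
    _ < ((2 + k) ^ 4 * Y ^ 7) * ((2 + k) ^ 20 * Y ^ 5) := Nat.mul_lt_mul_of_pos_right h3 h0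
    _ = ((2 + k) ^ 4 * Y ^ 2) ^ 6 := by ring

end Cfsg.Agent.H166.Og
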