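import Mathlib
import Cfsg.Agent.H166.Og.XCore
import Cfsg.Agent.H166.Og.XNum

/-!
# S2454, orthogonal rows: `lemmaX_plus`, `lemmaX_odd`, `lemmaX_minus` (helper166), relative to the degree bound `lemmaA`
-/

set_option autoImplicit false
set_option linter.unusedSectionVars false

namespace Cfsg.Agent.H166.Og

open QuadraticMap Matrix Module Subgroup Cfsg.Agent.LieClassical.OrthCore Cfsg.Agent.LieClassical.OrthTrans
  Cfsg.Agent.H514.DP Cfsg.Agent.H105.Og

variable {F : Type} [Field F] [Finite F] {U : Type} [AddCommGroup U] [Module F U] [FiniteDimensional F U]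

/-- the degree bound `lemmaA` of helper699 as a hypothesis -/
def DegA (F : Type) [Field F] [Finite F] (U : Type) [AddCommGroup U] [Module F U] [FiniteDimensional F U] (n : ℕ)
    (R : QuadraticForm F U) : Prop :=
  MinDeg (E (HU (Fin n) R))
      ((Nat.card F - 1) * (Nat.card F ^ (2 * n + finrank F U - 4) + Nat.card F ^ (2 * n + finrank F U - 5)) - 1)

theorem two_le_card (F : Type) [Field F] [Finite F] : 2 ≤ Nat.card F := Finite.one_lt_card

theorem no_six {p : ℕ} (hp : p.Prime) (h : orderOf ((2 : ℕ) : ZMod p) = 2 * 3) : False := by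
  have h1 := dvd_pow_add_one hp (by norm_num) h
  norm_num at h1
  have h2 : p ∣ 3 := by
    have : p ∣ 3 * 3 := h1
    rcases (Nat.Prime.dvd_mul hp).1 this with h | h <;> exact h
  have h3 : p = 3 := (Nat.prime_dvd_prime_iff_eq hp Nat.prime_three).1 h2
  subst h3
  have h4 : orderOf ((2 : ℕ) : ZMod 3) ∣ 2 := orderOf_dvd_of_pow_eq_one (by decide)
  rw [h] at h4
  norm_num at h4

theorem nondeg' {V : Type} [AddCommGroup V] [Module F V] {Q : QuadraticForm F V} (hG : Nondeg Q) :
    ∀ u, (∀ v, QuadraticMap.polar Q v u = 0) → u = 0 :=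
  fun u hu => hG u fun y => by rw [QuadraticMap.polar_comm]; exact hu y

theorem lemmaX_plus {i : ℕ} (hi : 3 ≤ i) {p : ℕ} (hp : p.Prime) (ho : orderOf ((Nat.card F : ℕ) : ZMod p) = 2 * i)
    {R : QuadraticForm F U} (hR : Nondeg R) (hU : finrank F U = 0) (hA : DegA F U (i + 1) R) :
    PW p 5 (E (HU (Fin (i + 1)) R)) := by
  have hG : Good (HU (Fin (i + 1)) R) := good_HU hR (by omega)
  have hq := two_le_card F
  have hfr : finrank F (((Fin (i + 1) → F) × (Fin (i + 1) → F)) × U) = 2 * i + 2 := by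
    rw [finrank_HU, hU]
    ring
  have hcount : Nat.card {v // HU (Fin (i + 1)) R v = 0} - 1 =
      (Nat.card F ^ (i + 1) - 1) * (Nat.card F ^ i + 1) := by
    have : Subsingleton U := finrank_zero_iff.1 hU
    have h1 : Nat.card {u : U // R u = 0} = 1 := by
      rw [Nat.card_eq_one_iff_unique]
      exact ⟨⟨fun a b => Subtype.ext (Subsingleton.elim _ _)⟩, ⟨0, QuadraticMap.map_zero R⟩⟩
    rw [card_sing, h1, hU, pow_zero, mul_one, mul_one, Nat.add_sub_cancel]
    have h2 : 1 ≤ Nat.card F ^ (i + 1) := Nat.one_le_pow _ _ (by omega)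
    obtain ⟨k, hk⟩ := Nat.exists_eq_add_of_le h2
    rw [hk, Nat.add_sub_cancel_left]
    rw [mul_add, mul_one, ← add_assoc]
    omega
  have hdvd : p ∣ Nat.card (E (HU (Fin (i + 1)) R)) := by
    refine dvd_trans ?_ (dvd_card_E hG)
    rw [hcount]
    exact Dvd.dvd.mul_left (dvd_pow_add_one hp (by omega) ho) _
  refine core hG hp (by omega) ho (by omega) (c := 4 * Nat.card F)
    (fun U' hU' h => H990.TC.Cent.card_iso_two _ h (by omega)) hA ?_ hdvd
  have e1 : 2 * (i + 1) + finrank F U - 4 = 2 * i - 2 := by omega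
  have e2 : 2 * (i + 1) + finrank F U - 5 = 2 * i - 3 := by omega
  rw [e1, e2]
  refine num_two hq hi ?_
  rintro ⟨h1, rfl⟩
  rw [h1] at ho
  exact no_six hp ho

theorem lemmaX_odd {n : ℕ} (hn : 3 ≤ n) {p : ℕ} (hp : p.Prime) (ho : orderOf ((Nat.card F : ℕ) : ZMod p) = 2 * n)
    (h2 : (2 : F) ≠ 0) {R : QuadraticForm F U} (hR : Nondeg R) (hU : finrank F U = 1) (hA : DegA F U n R) :
    PW p 70 (E (HU (Fin n) R)) := by
  have hG : Good (HU (Fin n) R) := good_HU hR (by omega)
  have hq : 3 ≤ Nat.card F := by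
    have hq := two_le_card F
    by_contra hcon
    have h3 : Nat.card F = 2 := by omega
    apply h2
    have := Fintype.ofFinite F
    have h4 : ((Fintype.card F : ℕ) : F) = 0 := Nat.cast_card_eq_zero F
    rw [← Nat.card_eq_fintype_card, h3] at h4
    exact_mod_cast h4
  have hfr : finrank F (((Fin n → F) × (Fin n → F)) × U) = 2 * n + 1 := by
    rw [finrank_HU, hU]
  have hcount : Nat.card {v // HU (Fin n) R v = 0} - 1 = Nat.card F ^ (2 * n) - 1 := by
    have h1 : Nat.card {u : U // R u = 0} = 1 := by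
      obtain ⟨v, hv, hs⟩ := finrank_eq_one_iff'.1 hU
      have hQv : R v ≠ 0 := by
        intro h0
        apply hv
        apply hR
        intro y
        obtain ⟨a, rfl⟩ := hs y
        rw [QuadraticMap.polar_smul_right, polar_self', h0, mul_zero, smul_zero]
      rw [Nat.card_eq_one_iff_unique]
      refine ⟨⟨fun a b => ?_⟩, ⟨0, QuadraticMap.map_zero R⟩⟩
      have h3 : ∀ u : {u : U // R u = 0}, u.1 = 0 := by
        intro u
        obtain ⟨a, ha⟩ := hs u.1
        have h4 := u.2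
        rw [← ha, QuadraticMap.map_smul, smul_eq_mul] at h4
        rcases mul_eq_zero.1 h4 with h5 | h5
        · have h6 : a = 0 := by simpa using h5
          rw [← ha, h6, zero_smul]
        · exact absurd h5 hQv
      exact Subtype.ext ((h3 a).trans (h3 b).symm)
    rw [card_sing, h1, hU, pow_one, mul_one]
    obtain ⟨k, rfl⟩ := Nat.exists_eq_add_of_le hn
    have e1 : 3 + k - 1 = k + 2 := by omega
    rw [e1, ← pow_succ]
    have e2 : k + 2 + 1 = 3 + k := by omega
    rw [e2]
    have h3 : 1 ≤ Nat.card F ^ (3 + k) := Nat.one_le_pow _ _ (by omega)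
    obtain ⟨a, ha⟩ := Nat.exists_eq_add_of_le h3
    have e3 : Nat.card F ^ (2 * (3 + k)) = Nat.card F ^ (3 + k) * Nat.card F ^ (3 + k) := by rw [two_mul, pow_add]
    rw [e3, ha, Nat.add_sub_cancel_left]
    congr 1
    ring
  have hdvd : p ∣ Nat.card (E (HU (Fin n) R)) := by
    refine dvd_trans ?_ (dvd_card_E hG)
    rw [hcount]
    have h3 := dvd_pow_add_one hp (by omega) ho
    refine h3.trans ⟨Nat.card F ^ n - 1, ?_⟩
    have h4 : 1 ≤ Nat.card F ^ n := Nat.one_le_pow _ _ (by omega)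
    obtain ⟨a, ha⟩ := Nat.exists_eq_add_of_le h4
    have e3 : Nat.card F ^ (2 * n) = Nat.card F ^ n * Nat.card F ^ n := by rw [two_mul, pow_add]
    rw [e3, ha, Nat.add_sub_cancel_left]
    have : (1 + a) * (1 + a) = (1 + a + 1) * a + 1 := by ring
    omega
  have h5 := core hG hp (by omega) ho (by omega) (c := 2)
    (fun U' hU' h => H990.TC.Cent.card_iso_one _ h (by omega)) hA (by
      have e1 : 2 * n + finrank F U - 4 = 2 * n - 3 := by omega
      have e2 : 2 * n + finrank F U - 5 = 2 * n - 4 := by omega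
      rw [e1, e2]
      exact num_one hq hn) hdvd
  exact h5.mono (by norm_num)

/-- the number of singular vectors in the minus case -/
theorem count_minus {m : ℕ} {R : QuadraticForm F U} (hm : 1 ≤ m) (hU : finrank F U = 2) (han : ∀ u, R u = 0 → u = 0) :
    Nat.card {v // HU (Fin m) R v = 0} - 1 = (Nat.card F ^ (m + 1) + 1) * (Nat.card F ^ m - 1) := by
  have hq := two_le_card F
  have h1 : Nat.card {u : U // R u = 0} = 1 := by
    rw [Nat.card_eq_one_iff_unique]
    exact ⟨⟨fun a b => Subtype.ext ((han _ a.2).trans (han _ b.2).symm)⟩, ⟨0, QuadraticMap.map_zero R⟩⟩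
  rw [card_sing, h1, hU, mul_one]
  have e1 : Nat.card F ^ (m - 1) * Nat.card F ^ 2 = Nat.card F ^ (m + 1) := by
    rw [← pow_add]
    congr 1
    omega
  rw [e1]
  have h3 : 1 ≤ Nat.card F ^ m := Nat.one_le_pow _ _ (by omega)
  obtain ⟨a, ha⟩ := Nat.exists_eq_add_of_le h3
  rw [ha, Nat.add_sub_cancel_left]
  have : a * Nat.card F ^ (m + 1) + (1 + a) = (Nat.card F ^ (m + 1) + 1) * a + 1 := by ring
  omega

section Step

variable {F : Type} [Field F] {U : Type} [AddCommGroup U] [Module F U]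

theorem snoc_dot {k : ℕ} (x : Fin k → F) (y : Fin (k + 1) → F) :
    (Fin.snoc (α := fun _ => F) x 0 : Fin (k + 1) → F) ⬝ᵥ y = x ⬝ᵥ (y ∘ Fin.castSucc) := by
  rw [dotProduct, Fin.sum_univ_castSucc]
  simp [dotProduct]

theorem snoc_add {k : ℕ} (x y : Fin k → F) :
    (Fin.snoc (α := fun _ => F) (x + y) 0 : Fin (k + 1) → F) =
      Fin.snoc (α := fun _ => F) x 0 + Fin.snoc (α := fun _ => F) y 0 := by
  funext j
  refine Fin.lastCases ?_ (fun j => ?_) j <;> simp

theorem snoc_smul {k : ℕ} (c : F) (x : Fin k → F) :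
    (Fin.snoc (α := fun _ => F) (c • x) 0 : Fin (k + 1) → F) = c • Fin.snoc (α := fun _ => F) x 0 := by
  funext j
  refine Fin.lastCases ?_ (fun j => ?_) j <;> simp

/-- the inclusion of the space with one hyperbolic plane less -/
def incS (k : ℕ) (F U : Type) [Field F] [AddCommGroup U] [Module F U] :
    (((Fin k → F) × (Fin k → F)) × U) →ₗ[F] (((Fin (k + 1) → F) × (Fin (k + 1) → F)) × U) where
  toFun v := ((Fin.snoc (α := fun _ => F) v.1.1 0, Fin.snoc (α := fun _ => F) v.1.2 0), v.2)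
  map_add' v w := Prod.ext (Prod.ext (snoc_add _ _) (snoc_add _ _)) rfl
  map_smul' c v := Prod.ext (Prod.ext (snoc_smul _ _) (snoc_smul _ _)) rfl

/-- the retraction -/
def resS (k : ℕ) (F U : Type) [Field F] [AddCommGroup U] [Module F U] :
    (((Fin (k + 1) → F) × (Fin (k + 1) → F)) × U) →ₗ[F] (((Fin k → F) × (Fin k → F)) × U) where
  toFun v := ((v.1.1 ∘ Fin.castSucc, v.1.2 ∘ Fin.castSucc), v.2)
  map_add' v w := rfl
  map_smul' c v := rfl

theorem resS_incS (k : ℕ) (v : ((Fin k → F) × (Fin k → F)) × U) : resS k F U (incS k F U v) = v := by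
  refine Prod.ext (Prod.ext ?_ ?_) rfl
  · funext j
    exact Fin.snoc_castSucc (α := fun _ => F) (p := v.1.1) (x := 0) j
  · funext j
    exact Fin.snoc_castSucc (α := fun _ => F) (p := v.1.2) (x := 0) j

theorem card_step [Finite F] [FiniteDimensional F U] (k : ℕ) (R : QuadraticForm F U) :
    Nat.card (E (HU (Fin k) R)) ∣ Nat.card (E (HU (Fin (k + 1)) R)) := by
  have hQ : ∀ v, HU (Fin (k + 1)) R (incS k F U v) = HU (Fin k) R v := by
    intro v
    rw [HU_apply, HU_apply]
    show (Fin.snoc (α := fun _ => F) v.1.1 0 : Fin (k + 1) → F) ⬝ᵥ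
      (Fin.snoc (α := fun _ => F) v.1.2 0 : Fin (k + 1) → F) + R v.2 = _
    rw [snoc_dot]
    congr 2
    funext j
    exact Fin.snoc_castSucc (α := fun _ => F) (p := v.1.2) (x := 0) j
  have hp : ∀ x v, polar (HU (Fin (k + 1)) R) (incS k F U x) v = polar (HU (Fin k) R) x (resS k F U v) := by
    intro x v
    rw [polar_HU, polar_HU]
    show (Fin.snoc (α := fun _ => F) x.1.1 0 : Fin (k + 1) → F) ⬝ᵥ v.1.2 +
      v.1.1 ⬝ᵥ (Fin.snoc (α := fun _ => F) x.1.2 0 : Fin (k + 1) → F) + polar R x.2 v.2 =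
      x.1.1 ⬝ᵥ (v.1.2 ∘ Fin.castSucc) + (v.1.1 ∘ Fin.castSucc) ⬝ᵥ x.1.2 + polar R x.2 v.2
    rw [snoc_dot, dotProduct_comm v.1.1, snoc_dot, dotProduct_comm x.1.2]
  have : Finite (E (HU (Fin (k + 1)) R)) := finite_E _
  refine Subgroup.card_dvd_of_injective (extE (incS k F U) (resS k F U) (resS_incS k) hQ hp) ?_
  rw [injective_iff_map_eq_one]
  intro g hg
  apply Subtype.ext
  apply LinearEquiv.ext
  intro x
  have h1 := congrArg (fun z : E (HU (Fin (k + 1)) R) =>
    resS k F U ((z : (((Fin (k + 1) → F) × (Fin (k + 1) → F)) × U) ≃ₗ[F] _) (incS k F U x))) hg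
  have h2 : resS k F U ((extE (incS k F U) (resS k F U) (resS_incS k) hQ hp g :
      (((Fin (k + 1) → F) × (Fin (k + 1) → F)) × U) ≃ₗ[F] _) (incS k F U x)) = (g : _ ≃ₗ[F] _) x := by
    rw [extE_coe, extH_apply, map_add, resS_incS, resS_incS]
    abel
  have h3 : resS k F U (((1 : E (HU (Fin (k + 1)) R)) : (((Fin (k + 1) → F) × (Fin (k + 1) → F)) × U) ≃ₗ[F] _)
      (incS k F U x)) = x := resS_incS k x
  exact h2.symm.trans (h1.trans h3)

end Step

theorem lemmaX_minus {m i : ℕ} (hm : 3 ≤ m) (hi : i = m ∨ i = m + 1) {p : ℕ} (hp : p.Prime)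
    (ho : orderOf ((Nat.card F : ℕ) : ZMod p) = 2 * i)
    {R : QuadraticForm F U} (hR : Nondeg R) (hU : finrank F U = 2) (han : ∀ u, R u = 0 → u = 0)
    (hA : DegA F U m R) :
    PW p 70 (E (HU (Fin m) R)) := by
  have hG : Good (HU (Fin m) R) := good_HU hR (by omega)
  have hq := two_le_card F
  have hfr : finrank F (((Fin m → F) × (Fin m → F)) × U) = 2 * m + 2 := by
    rw [finrank_HU, hU]
  have e1 : 2 * m + finrank F U - 4 = 2 * m - 2 := by omega
  have e2 : 2 * m + finrank F U - 5 = 2 * m - 3 := by omega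
  rcases hi with rfl | rfl
  · -- `i = m`: the element lies in the subgroup of dimension `2 * m`
    obtain ⟨k, rfl⟩ : ∃ k, i = k + 1 := ⟨i - 1, by omega⟩
    have hG0 : Good (HU (Fin k) R) := good_HU hR (by omega)
    have h1 : p ∣ Nat.card (E (HU (Fin k) R)) := by
      refine dvd_trans ?_ (dvd_card_E hG0)
      rw [count_minus (by omega) hU han]
      exact Dvd.dvd.mul_right (dvd_pow_add_one hp (by omega) ho) _
    have h2 : Nat.card (E (HU (Fin k) R)) ∣ Nat.card (E (HU (Fin (k + 1)) R)) := card_step k R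
    refine (core hG hp (by omega) ho (by omega) (c := 4 * Nat.card F)
      (fun U' hU' h => H990.TC.Cent.card_iso_two _ h (by omega)) hA ?_ (h1.trans h2)).mono (by norm_num)
    rw [e1, e2]
    refine num_two hq hm ?_
    rintro ⟨h3, h4⟩
    rw [h3, h4] at ho
    exact no_six hp ho
  · have hdvd : p ∣ Nat.card (E (HU (Fin m) R)) := by
      refine dvd_trans ?_ (dvd_card_E hG)
      rw [count_minus (by omega) hU han]
      exact Dvd.dvd.mul_right (dvd_pow_add_one hp (by omega) ho) _
    refine (core hG hp (by omega) ho (by omega) (c := 1)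
      (fun U' hU' _ => H990.TC.Cent.card_iso_zero _ (by omega)) hA ?_ hdvd).mono (by norm_num)
    rw [e1, e2, mul_one]
    exact num_zero hq hm

end Cfsg.Agent.H166.Og
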